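import Cfsg.Agent.H566.G2.Core

/-!
# S3509, the groups `G₂(q)`: the involution is in the normal closure (helper566)
-/

set_option autoImplicit false
set_option linter.unusedSimpArgs false
open Cfsg

namespace Cfsg.Agent.H566.G2

open Cfsg.Lie Cfsg.Agent.H161.Oct

variable {F : Type} [Field F]

/-- an element with `a ^ 12 = 1`, `a ^ p = 1` -/
theorem pow_six {H : Type*} [Group H] {a : H} {p : ℕ} (hp : p.Prime) (hp2 : p ≠ 2) (h12 : a ^ 12 = 1) (hap : a ^ p = 1) :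
    a ^ 6 = 1 := by
  by_cases h3 : p = 3
  · subst h3
    rw [show (6 : ℕ) = 3 * 2 by norm_num, pow_mul, hap, one_pow]
  · have hc : Nat.Coprime 12 p := by
      rw [show (12 : ℕ) = 2 * 2 * 3 by norm_num]
      refine Nat.Coprime.mul_left (Nat.Coprime.mul_left ?_ ?_) ?_
      · exact (Nat.coprime_primes Nat.prime_two hp).2 (Ne.symm hp2)
      · exact (Nat.coprime_primes Nat.prime_two hp).2 (Ne.symm hp2)
      · exact (Nat.coprime_primes Nat.prime_three hp).2 (Ne.symm h3)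
    have h1 : orderOf a ∣ Nat.gcd 12 p := Nat.dvd_gcd (orderOf_dvd_of_pow_eq_one h12) (orderOf_dvd_of_pow_eq_one hap)
    rw [hc, Nat.dvd_one, orderOf_eq_one_iff] at h1
    rw [h1, one_pow]

theorem Bl_Wt {a b c d : F} (h : a * d - b * c = 1) (t : F) : Bl a b c d h * Wt t = Wt t * Bl a b c d h := by
  unfold Wt
  rw [← mul_assoc, ← mul_assoc, Bl_Pt, mul_assoc (Pt t), Bl_Qt, mul_assoc (Pt t * Qt t⁻¹), ← Bl_Pt]
  simp only [mul_assoc]

/-- the involution is in the normal closure -/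
theorem zz_mem {p : ℕ} [CharP F p] (hp : p.Prime) (hp2 : p ≠ 2) {a b c d : F} (h : a * d - b * c = 1) {t : F} (ht : t ≠ 0)
    {a' b' c' d' : F} (h' : a' * d' - b' * c' = 1) {N : Subgroup (AutO F)}
    (hN : ∀ g, g * Bl a b c d h = Bl a b c d h * g → ∀ n ∈ N, g * n * g⁻¹ ∈ N) (hu : Pt t * Bl a' b' c' d' h' ∈ N) :
    zz F ∈ N := by
  set s := Bl a b c d h with hs
  set ℓ := Bl a' b' c' d' h' with hℓ
  let C : Subgroup (AutO F) := Subgroup.centralizer {s}
  have memC : ∀ g : AutO F, g * s = s * g → g ∈ C := by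
    intro g hg
    rw [Subgroup.mem_centralizer_singleton_iff]
    exact hg
  have hP : Pt t ∈ C := memC _ (Bl_Pt h t).symm
  have hQ : Qt t⁻¹ ∈ C := memC _ (Bl_Qt h _).symm
  have hW : Wt t ∈ C := memC _ (Bl_Wt h t).symm
  let N' : Subgroup C := N.subgroupOf C
  have hN' : N'.Normal := by
    constructor
    intro n hn g
    rw [Subgroup.mem_subgroupOf] at hn ⊢
    refine hN g ?_ _ hn
    have := g.2
    rw [Subgroup.mem_centralizer_singleton_iff] at this
    exact this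
  let q : C →* C ⧸ N' := QuotientGroup.mk' N'
  have hq : ∀ g : C, (g : AutO F) ∈ N → q g = 1 := by
    intro g hg
    rw [QuotientGroup.mk'_apply, QuotientGroup.eq_one_iff, Subgroup.mem_subgroupOf]
    exact hg
  have hq' : ∀ g : C, q g = 1 → (g : AutO F) ∈ N := by
    intro g hg
    rw [QuotientGroup.mk'_apply, QuotientGroup.eq_one_iff, Subgroup.mem_subgroupOf] at hg
    exact hg
  -- `a (w a⁻¹ w⁻¹) ∈ N`
  have k1 : Pt t * (Wt t * (Pt t)⁻¹ * (Wt t)⁻¹) ∈ N := by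
    have e1 : Wt t * ℓ = ℓ * Wt t := (Bl_Wt h' t).symm
    have e2 : Pt t * ℓ = ℓ * Pt t := (Bl_Pt h' t).symm
    have e3 : Wt t * (Pt t * ℓ)⁻¹ * (Wt t)⁻¹ ∈ N := hN _ (Bl_Wt h t).symm _ (N.inv_mem hu)
    have e4 : Pt t * (Wt t * (Pt t)⁻¹ * (Wt t)⁻¹) = (Pt t * ℓ) * (Wt t * (Pt t * ℓ)⁻¹ * (Wt t)⁻¹) := by
      have e5 : Wt t * ℓ⁻¹ = ℓ⁻¹ * Wt t := by
        rw [eq_inv_mul_iff_mul_eq, ← mul_assoc, ← e1, mul_assoc, mul_inv_cancel, mul_one]
      rw [mul_inv_rev, ← mul_assoc (Wt t), e5]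
      simp only [mul_assoc, mul_inv_cancel_left]
    rw [e4]
    exact N.mul_mem hu e3
  have k2 : Wt t * (Pt t)⁻¹ * (Wt t)⁻¹ = (Qt t⁻¹)⁻¹ := by
    have := Wt_conj ht
    rw [← inv_inj, inv_inv, mul_inv_rev, mul_inv_rev, inv_inv, inv_inv, ← mul_assoc, this, mul_assoc, mul_inv_cancel,
      mul_one]
  rw [k2] at k1
  set α := q ⟨Pt t, hP⟩ with hα
  have k3 : q ⟨Qt t⁻¹, hQ⟩ = α := by
    have h1 : q (⟨Pt t, hP⟩ * (⟨Qt t⁻¹, hQ⟩ : C)⁻¹) = 1 := hq _ k1
    rw [map_mul, map_inv, mul_inv_eq_one] at h1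
    exact h1.symm
  have k4 : q ⟨Wt t, hW⟩ = α ^ 3 := by
    have h1 : (⟨Wt t, hW⟩ : C) = ⟨Pt t, hP⟩ * ⟨Qt t⁻¹, hQ⟩ * ⟨Pt t, hP⟩ := rfl
    rw [h1, map_mul, map_mul, k3, pow_succ, pow_two]
  have hzC : zz F ∈ C := by rw [← Wt_sq ht]; exact C.mul_mem hW hW
  have k5 : q ⟨zz F, hzC⟩ = α ^ 6 := by
    have h1 : (⟨zz F, hzC⟩ : C) = ⟨Wt t, hW⟩ * ⟨Wt t, hW⟩ := Subtype.ext (Wt_sq ht).symm
    rw [h1, map_mul, k4, ← pow_add]
  have hz2 : zz F * zz F = 1 := by
    apply ext_ap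
    intro x
    rw [mul_ap, zz_apply, zz_apply]
    change _ = x
    apply ext8 <;> simp
  have k6 : α ^ 12 = 1 := by
    have h1 : q (⟨zz F, hzC⟩ * ⟨zz F, hzC⟩) = 1 := hq _ (by
      change zz F * zz F ∈ N
      rw [hz2]; exact N.one_mem)
    rw [map_mul, k5, ← pow_add] at h1
    exact h1
  have k7 : α ^ p = 1 := by
    rw [hα, ← map_pow]
    apply hq
    change Pt t ^ p ∈ N
    rw [Pt_pow, CharP.cast_eq_zero, zero_mul, Pt_zero]
    exact N.one_mem
  have k8 := pow_six hp hp2 k6 k7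
  exact hq' ⟨zz F, hzC⟩ (by rw [k5, k8])

theorem zz_sq : (zz F) ^ 2 = 1 := by
  rw [pow_two]
  apply ext_ap
  intro x
  rw [mul_ap, zz_apply, zz_apply]
  change _ = x
  apply ext8 <;> simp

theorem zz_ne (h2 : (2 : F) ≠ 0) : zz F ≠ 1 := by
  intro h
  have h1 := congrArg (fun g : AutO F => (g : V F ≃ₗ[F] V F) (Pi.single 1 1) 1) h
  simp only [zz_apply] at h1
  have h3 : (1 : AutO F) = 1 := rfl
  have h4 : (((1 : AutO F) : V F ≃ₗ[F] V F) (Pi.single 1 1)) 1 = (1 : F) := by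
    change (Pi.single 1 1 : V F) 1 = 1
    simp
  rw [h4] at h1
  simp at h1
  apply h2
  linear_combination -h1

theorem Bl_eq_one {a b c d : F} (h : a * d - b * c = 1) (hb : b = 0) (hc : c = 0) (ha : a = 1) (hd : d = 1) :
    Bl a b c d h = 1 := by
  apply ext_ap
  intro x
  rw [Bl_apply]
  change _ = x
  subst hb; subst hc; subst ha; subst hd
  apply ext8 <;> simp [bF]

/-- the involution is unique -/
theorem zz_unique (h2 : (2 : F) ≠ 0) {t : AutO F} (ht : t ^ 2 = 1) (ht1 : t ≠ 1)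
    (hf : ∀ v : V F, v 1 = 0 → v 2 = 0 → v 4 = 0 → v 5 = 0 → (t : V F ≃ₗ[F] V F) v = v) : t = zz F := by
  have f1 : (t : V F ≃ₗ[F] V F) e1 = e1 := hf _ rfl rfl rfl rfl
  have f0 : (t : V F ≃ₗ[F] V F) (n0 F) = n0 F := hf _ rfl rfl rfl rfl
  have f2 : (t : V F ≃ₗ[F] V F) (n1 F) = n1 F := hf _ rfl rfl rfl rfl
  obtain ⟨a, b, c, d, h, rfl⟩ := exists_Bl f1 f0 (by rw [f2]; rfl) (by rw [f2]; rfl)
  have sq : ∀ x : V F, bF a b c d (bF a b c d x) = x := by
    intro x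
    have h1 := congrArg (fun g : AutO F => (g : V F ≃ₗ[F] V F) x) ht
    simp only [pow_two, mul_ap, Bl_apply] at h1
    exact h1
  have s1 := sq (Pi.single 1 1)
  have s2 := sq (Pi.single 2 1)
  have a1 := congrFun s1 1
  have a2 := congrFun s1 2
  have b1 := congrFun s2 1
  have b2 := congrFun s2 2
  simp [bF] at a1 a2 b1 b2
  have t1 : a * (a + d) = 2 := by linear_combination a1 + h
  have t0 : a + d ≠ 0 := by
    intro h0
    rw [h0, mul_zero] at t1
    exact h2 t1.symm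
  have hb : b = 0 := by
    have : b * (a + d) = 0 := by linear_combination b1
    exact (mul_eq_zero.1 this).resolve_right t0
  have hc : c = 0 := by
    have : c * (a + d) = 0 := by linear_combination a2
    exact (mul_eq_zero.1 this).resolve_right t0
  have hda : d = a := by
    have h3 : a * d = 1 := by rw [hb] at h; linear_combination h
    have h4 : a * a = 1 := by rw [hb] at a1; linear_combination a1
    have ha0 : a ≠ 0 := by rintro rfl; simp at h4
    exact mul_left_cancel₀ ha0 (by rw [h3, h4])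
  have h4 : (a - 1) * (a + 1) = 0 := by rw [hb] at a1; linear_combination a1
  rcases mul_eq_zero.1 h4 with h5 | h5
  · exfalso
    apply ht1
    have ha : a = 1 := sub_eq_zero.1 h5
    exact Bl_eq_one h hb hc ha (by rw [hda, ha])
  · have ha : a = -1 := eq_neg_of_add_eq_zero_left h5
    unfold zz
    subst hb; subst hc; subst hda; subst ha
    rfl

end Cfsg.Agent.H566.G2
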