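import Cfsg.Agent.H161.OctFix
import Cfsg.Agent.H161.OctOrd3
import Cfsg.Agent.H161.G2Elems
import Cfsg.Agent.H106.RC.Use
import Cfsg.Agent.H327.RG.KillY

/-!
# S3509, the groups `G₂(q)`: definitions (helper566)

Statements and owners: `tools/plans/S3509_G2_stubs.lean.txt`.
-/

set_option autoImplicit false
open Cfsg

namespace Cfsg.Agent.H566.G2

open Cfsg.Agent.H161.Oct Cfsg.Agent.H106.RC MulAction
open scoped commutatorElement

variable {F : Type} [Field F]

/-- the discriminant of the subalgebra `F[e]` -/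
def dsc (e : V F) : F := tr e ^ 2 - 4 * nm e

/-- the pointwise stabiliser of `F[e]` -/
def MK (e : V F) : Subgroup (AutO F) where
  carrier := {g | (g : V F ≃ₗ[F] V F) e = e}
  mul_mem' {a b} ha hb := by
    change (a : V F ≃ₗ[F] V F) ((b : V F ≃ₗ[F] V F) e) = e
    rw [show (b : V F ≃ₗ[F] V F) e = e from hb, show (a : V F ≃ₗ[F] V F) e = e from ha]
  one_mem' := rfl
  inv_mem' {a} ha := by
    change (a : V F ≃ₗ[F] V F).symm e = e
    rw [LinearEquiv.symm_apply_eq]
    exact (show (a : V F ≃ₗ[F] V F) e = e from ha).symm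

theorem mem_MK {e : V F} {g : AutO F} : g ∈ MK e ↔ (g : V F ≃ₗ[F] V F) e = e := Iff.rfl

/-- `g` preserves `F[e]` -/
def PK (e : V F) (g : AutO F) : Prop := ∃ a b : F, (g : V F ≃ₗ[F] V F) e = a • o + b • e

/-- what the M-rule needs to know about `MK e ≅ SL(3, q)` or `SU(3, q)` -/
structure MFacts (e : V F) : Prop where
  perf : ⁅MK e, MK e⁆ = MK e
  bot : MK e ≠ ⊥
  top : MK e ≠ ⊤
  quo : ∃ (S' : Type) (_ : Group S') (_ : Finite S') (π : MK e →* S'), Function.Surjective π ∧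
    π.ker ≤ Subgroup.center (MK e) ∧ IsSimpleGroup S' ∧ ¬ IsMulCommutative S' ∧ Cl S' ∧ ¬ Exc S'
  cen : ∀ c : AutO F, (∀ m ∈ MK e, c * m = m * c) → c ∈ MK e ∧ c ^ 3 = 1

end Cfsg.Agent.H566.G2
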