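import Cfsg.Agent.H566.G2.Defs

/-!
# S3509, the groups `G₂(q)`: (B), elements of order prime to the characteristic (helper566)
-/

set_option autoImplicit false
open Cfsg

namespace Cfsg.Agent.H566.G2

open Cfsg.Agent.H161.Oct Cfsg.Agent.H106.RC MulAction
open scoped commutatorElement

variable {F : Type} [Field F]

theorem dsc_smul (c : F) (e : V F) : dsc (c • e) = c ^ 2 * dsc e := by
  unfold dsc; rw [tr_smul, nm_smul]; ring

theorem dsc_add_o (a : F) (e : V F) : dsc (a • o + e) = dsc e := by
  unfold dsc; rw [tr_add, tr_smul, tr_o, nm_add, nm_smul, nm_o, bl_smul', bl_comm o e, bl_o]; ring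

/-- (B), with `m ≠ 0` in `F` -/
theorem exists_e' {s : V F ≃ₗ[F] V F} (hs : s ∈ AutO F) (hdet : LinearMap.det (s : V F →ₗ[F] V F) = 1)
    {m : ℕ} (hm : (m : F) ≠ 0) (hsm : s ^ m = 1) : ∃ e : V F, s e = e ∧ dsc e ≠ 0 := by
  have hso := map_o hs
  by_cases h2 : (2 : F) = 0
  · have h1 : tr (avg s m e1) = m := by rw [tr_avg hs]; simp [tr, e1]
    refine ⟨avg s m e1, avg_fixed hsm _, ?_⟩
    unfold dsc
    rw [h1]
    have h4 : (4 : F) = 0 := by rw [show (4 : F) = 2 * 2 by norm_num, h2, zero_mul]
    rw [h4, zero_mul, sub_zero]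
    exact pow_ne_zero 2 hm
  · obtain ⟨v, hv0, hv⟩ := exists_fixed_of_det
      (T := (s : V F →ₗ[F] V F) ∘ₗ LinearMap.transvection (-trL F) o) (by
        intro x y
        simp only [LinearMap.comp_apply, LinearEquiv.coe_coe, LinearMap.transvection.apply,
          LinearMap.neg_apply, trL_apply]
        rw [map_bl hs]
        simp only [bl, tr, Pi.add_apply, Pi.smul_apply, smul_eq_mul, o0, o1, o2, o3, o4, o5, o6, o7]
        ring) (by
        rw [LinearMap.det_comp, hdet, LinearMap.transvection.det, LinearMap.neg_apply, trL_apply,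
          tr_o]
        intro h
        apply h2
        linear_combination -h)
    have hv' : s v - tr v • o = v := by
      have := hv
      simp only [LinearMap.comp_apply, LinearEquiv.coe_coe, LinearMap.transvection.apply,
        LinearMap.neg_apply, trL_apply, map_add, map_smul, hso] at this
      rw [neg_smul, ← sub_eq_add_neg] at this
      exact this
    have htv : tr v = 0 := by
      have := congrArg tr hv'
      have e1 : s v - tr v • o = s v + (-tr v) • o := by rw [neg_smul]; abel
      rw [e1, tr_add, tr_smul, tr_o, map_tr hs] at this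
      have h3 : (2 : F) * tr v = 0 := by linear_combination -this
      rcases mul_eq_zero.1 h3 with h | h
      · exact absurd h h2
      · exact h
    have hsv : s v = v := by
      rw [htv, zero_smul, sub_zero] at hv'
      exact hv'
    obtain ⟨u, hu, hut, hun⟩ : ∃ u : V F, s u = u ∧ tr u = 0 ∧ nm u ≠ 0 := by
      by_cases hnv : nm v = 0
      swap
      · exact ⟨v, hsv, htv, hnv⟩
      obtain ⟨w, hw⟩ : ∃ w, bl v w ≠ 0 := by
        by_contra hcon
        push Not at hcon
        exact hv0 (eq_zero_of_bl hcon)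
      set w₇ := w + (-(tr w / 2)) • o with hw₇
      have e1 : tr w₇ = 0 := by
        rw [hw₇, tr_add, tr_smul, tr_o]; field_simp; ring
      have e2 : bl v w₇ = bl v w := by
        rw [hw₇, bl_add, bl_smul, bl_o, htv]; ring
      set w' := avg s m w₇ with hw'
      have f1 : s w' = w' := avg_fixed hsm _
      have f2 : tr w' = 0 := by rw [hw', tr_avg hs, e1, mul_zero]
      have f3 : bl v w' ≠ 0 := by
        rw [hw', bl_avg hs hsv, e2]
        exact mul_ne_zero hm hw
      by_cases hnw : nm w' = 0
      · refine ⟨v + w', by rw [map_add, hsv, f1], by rw [tr_add, htv, f2, add_zero], ?_⟩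
        rw [nm_add, hnv, hnw, zero_add, zero_add]; exact f3
      · exact ⟨w', f1, f2, hnw⟩
    refine ⟨u, hu, ?_⟩
    unfold dsc
    rw [hut]
    have h4 : (4 : F) ≠ 0 := by rw [show (4 : F) = 2 * 2 by norm_num]; exact mul_ne_zero h2 h2
    intro h
    have h5 : (4 : F) * nm u = 0 := by linear_combination -h
    rcases mul_eq_zero.1 h5 with h6 | h6
    · exact h4 h6
    · exact hun h6

/-- (B) -/
theorem exists_e [Finite F] {p : ℕ} [CharP F p] (hdet : ∀ g ∈ AutO F, LinearMap.det (g : V F →ₗ[F] V F) = 1)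
    {s : V F ≃ₗ[F] V F} (hs : s ∈ AutO F) {m : ℕ} (hm : ¬ p ∣ m) (hsm : s ^ m = 1) : ∃ e : V F, s e = e ∧ dsc e ≠ 0 :=
  exists_e' hs (hdet s hs) (fun h => hm ((CharP.cast_eq_zero_iff F p m).1 h)) hsm

end Cfsg.Agent.H566.G2
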